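import Cfsg.Agent.S4106
import Cfsg.Agent.S0581
import Cfsg.Agent.S0087
import Cfsg.Agent.Lib.Coprime.Action
import Mathlib

/-!
Counting classes of `π`-elements: basic tools.
-/

set_option autoImplicit false

namespace Cfsg.Agent.Lib.ManyPiClasses

open Subgroup
open scoped Pointwise

universe u

variable {G : Type u} [Group G]

/-- All prime divisors of the order lie in `s`. -/
def PiEl (s : Finset ℕ) (g : G) : Prop := ∀ r : ℕ, r.Prime → r ∣ orderOf g → r ∈ s

/-- Conjugacy classes of `s`-elements. -/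
abbrev Cl (G : Type u) [Group G] (s : Finset ℕ) := S4106.Cls G (s : Set ℕ)

/-- The `s`-part of a natural number. -/
noncomputable def partN (n : ℕ) (s : Finset ℕ) : ℕ := ∏ q ∈ s, q ^ n.factorization q

lemma PiEl.conj {s : Finset ℕ} {g : G} (h : PiEl s g) (a : G) : PiEl s (a * g * a⁻¹) := fun r hr hd => by
  rw [show a * g * a⁻¹ = MulAut.conj a g from rfl, MulEquiv.orderOf_eq] at hd
  exact h r hr hd

lemma piEl_of_cl {s : Finset ℕ} (C : Cl G s) {g : G} (h : ConjClasses.mk g = C.1) : PiEl s g :=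
  fun r hr hd => Finset.mem_coe.1 (C.2 r hr ⟨g, h, hd⟩)

lemma cl_mem {s : Finset ℕ} {g : G} (h : PiEl s g) :
    ∀ q : ℕ, q.Prime → (∃ z : G, ConjClasses.mk z = ConjClasses.mk g ∧ q ∣ orderOf z) → q ∈ (s : Set ℕ) := by
  rintro q hq ⟨z, hz, hd⟩
  obtain ⟨c, hc⟩ := isConj_iff.1 (ConjClasses.mk_eq_mk_iff_isConj.1 hz.symm)
  exact Finset.mem_coe.2 (h.conj c q hq (hc ▸ hd))

/-- The class of an `s`-element. -/
def clOf {s : Finset ℕ} {g : G} (h : PiEl s g) : Cl G s := ⟨ConjClasses.mk g, cl_mem h⟩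

/-- A representative of a class. -/
noncomputable def rep {s : Finset ℕ} (C : Cl G s) : G := (ConjClasses.exists_rep C.1).choose

lemma mk_rep {s : Finset ℕ} (C : Cl G s) : ConjClasses.mk (rep C) = C.1 :=
  (ConjClasses.exists_rep C.1).choose_spec

lemma piEl_rep {s : Finset ℕ} (C : Cl G s) : PiEl s (rep C) := piEl_of_cl C (mk_rep C)

lemma piEl_coe {s : Finset ℕ} {H : Subgroup G} {v : H} : PiEl s (v : G) ↔ PiEl s v := by
  unfold PiEl
  rw [Subgroup.orderOf_coe]

lemma partN_pos {n : ℕ} {s : Finset ℕ} (hs : ∀ q ∈ s, q.Prime) : 0 < partN n s :=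
  Finset.prod_pos fun q hq => pow_pos (hs q hq).pos _

lemma partN_factorization {n : ℕ} {s : Finset ℕ} (hs : ∀ q ∈ s, q.Prime) (r : ℕ) :
    (partN n s).factorization r = if r ∈ s then n.factorization r else 0 := by
  classical
  unfold partN
  rw [Nat.factorization_prod fun q hq => pow_ne_zero _ (hs q hq).ne_zero, Finset.sum_congr rfl
    (g := fun q => Finsupp.single q (n.factorization q)) fun q hq => (hs q hq).factorization_pow]
  simp [Finsupp.finsetSum_apply, Finsupp.single_apply]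

lemma partN_dvd {n : ℕ} {s : Finset ℕ} (hs : ∀ q ∈ s, q.Prime) (hn : n ≠ 0) : partN n s ∣ n := by
  refine (Nat.factorization_le_iff_dvd (partN_pos hs).ne' hn).1 fun r => ?_
  rw [partN_factorization hs]
  split_ifs <;> simp

lemma mem_of_dvd_partN {n : ℕ} {s : Finset ℕ} (hs : ∀ q ∈ s, q.Prime) {r : ℕ} (hr : r.Prime)
    (h : r ∣ partN n s) : r ∈ s := by
  by_contra hc
  have := hr.factorization_pos_of_dvd (partN_pos hs).ne' h
  rw [partN_factorization hs, if_neg hc] at this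
  exact lt_irrefl 0 this

lemma dvd_partN {n : ℕ} {s : Finset ℕ} (hs : ∀ q ∈ s, q.Prime) {r : ℕ} (hr : r.Prime) (hrs : r ∈ s)
    (h : r ∣ n) (hn : n ≠ 0) : r ∣ partN n s :=
  (dvd_pow_self r (hr.factorization_pos_of_dvd hn h).ne').trans (Finset.dvd_prod_of_mem _ hrs)

lemma not_dvd_div_partN {n : ℕ} {s : Finset ℕ} (hs : ∀ q ∈ s, q.Prime) (hn : n ≠ 0) {r : ℕ} (hrs : r ∈ s) :
    ¬ r ∣ n / partN n s := by
  intro h
  have hd := partN_dvd hs hn
  have hne : n / partN n s ≠ 0 := fun e => hn (by rw [← Nat.div_mul_cancel hd, e, zero_mul])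
  have h1 := (hs r hrs).factorization_pos_of_dvd hne h
  rw [Nat.factorization_div hd, Finsupp.tsub_apply, partN_factorization hs, if_pos hrs] at h1
  omega

lemma partN_dvd_partN {m n : ℕ} {s : Finset ℕ} (hn : n ≠ 0) (h : m ∣ n) :
    partN m s ∣ partN n s := by
  refine Finset.prod_dvd_prod_of_dvd _ _ fun q _ => pow_dvd_pow q ?_
  have hm : m ≠ 0 := fun e => hn (Nat.eq_zero_of_zero_dvd (e ▸ h))
  exact (Nat.factorization_le_iff_dvd hm hn).2 h q

lemma part_sub_dvd [Finite G] (H : Subgroup G) (s : Finset ℕ) :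
    partN (Nat.card H) s ∣ partN (Nat.card G) s :=
  partN_dvd_partN Nat.card_pos.ne' (card_subgroup_dvd_card H)

lemma ge_of_dvd_partN {n p d : ℕ} {s : Finset ℕ} (hs : ∀ q ∈ s, q.Prime) (hp : ∀ q ∈ s, p ≤ q)
    (h : d ∣ partN n s) (h1 : d ≠ 1) : p ≤ d := by
  have hd : 0 < d := Nat.pos_of_dvd_of_pos h (partN_pos hs)
  obtain ⟨r, hr, hrd⟩ := Nat.exists_prime_and_dvd h1
  exact (hp r (mem_of_dvd_partN hs hr (hrd.trans h))).trans (Nat.le_of_dvd hd hrd)

lemma hall_of_card [Finite G] {s : Finset ℕ} (hs : ∀ q ∈ s, q.Prime) {R : Subgroup G}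
    (hR : Nat.card R = partN (Nat.card G) s) : (Nat.card R).Coprime R.index := by
  refine Nat.coprime_of_dvd fun r hr h1 h2 => ?_
  have hrs := mem_of_dvd_partN hs hr (hR ▸ h1)
  refine not_dvd_div_partN hs (n := Nat.card G) Nat.card_pos.ne' hrs ?_
  rwa [← hR, ← R.card_mul_index, Nat.mul_div_cancel_left _ Nat.card_pos]

lemma piEl_of_mem [Finite G] {s : Finset ℕ} (hs : ∀ q ∈ s, q.Prime) {R : Subgroup G}
    (hR : Nat.card R = partN (Nat.card G) s) {y : G} (hy : y ∈ R) : PiEl s y := fun r hr hd =>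
  mem_of_dvd_partN hs hr (hR ▸ hd.trans (R.orderOf_dvd_natCard hy))

/-- An `s`-element is conjugate into a nilpotent Hall `s`-subgroup. -/
lemma exists_conj_mem [Finite G] {s : Finset ℕ} (hs : ∀ q ∈ s, q.Prime) {R : Subgroup G}
    (hnil : Group.IsNilpotent R) (hR : Nat.card R = partN (Nat.card G) s) {y : G} (hy : PiEl s y) :
    ∃ c : G, c * y * c⁻¹ ∈ R := by
  obtain ⟨x, hx⟩ := S0581.result R (zpowers y) hnil (hall_of_card hs hR) fun r hr hd => by
    rw [Nat.card_zpowers] at hd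
    rw [hR]
    exact dvd_partN hs hr (hy r hr hd) (hd.trans (orderOf_dvd_natCard y)) Nat.card_pos.ne'
  refine ⟨x⁻¹, ?_⟩
  have := Coprime.mem_conj_smul.1 (hx (mem_zpowers y))
  simpa using this

/-- The two commuting parts of an element. -/
lemma exists_parts [Finite G] {u s t : Finset ℕ} (hs : ∀ q ∈ s, q.Prime) (hu : ∀ r ∈ u, r ∈ s ∨ r ∈ t)
    {g : G} (hg : PiEl u g) : ∃ a b : G, Commute a b ∧ a * b = g ∧ PiEl s a ∧ PiEl t b := by
  have hn : orderOf g ≠ 0 := (orderOf_pos g).ne'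
  have hd := partN_dvd (n := orderOf g) hs hn
  obtain ⟨n2, hn2⟩ := hd
  set n1 := partN (orderOf g) s with hn1
  have hnot : ∀ r ∈ s, ¬ r ∣ n2 := fun r hr h => not_dvd_div_partN hs hn hr (by
    rw [← hn1]; nth_rw 1 [hn2]; rwa [Nat.mul_div_cancel_left _ (partN_pos hs)])
  have hcop : Nat.Coprime n2 n1 :=
    Nat.coprime_of_dvd fun r hr h1 h2 => hnot r (mem_of_dvd_partN hs hr h2) h1
  obtain ⟨x, y, hxy⟩ := Nat.isCoprime_iff_coprime.2 hcop
  refine ⟨g ^ (x * n2), g ^ (y * n1), Commute.zpow_zpow_self g _ _, ?_, fun r hr hd => ?_, fun r hr hd => ?_⟩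
  · rw [← zpow_add, hxy, zpow_one]
  · refine mem_of_dvd_partN (n := orderOf g) hs hr (hd.trans (orderOf_dvd_of_pow_eq_one ?_))
    rw [← hn1, ← zpow_natCast, ← zpow_mul, mul_assoc, ← Nat.cast_mul, mul_comm n2, ← hn2, mul_comm,
      zpow_mul, zpow_natCast, pow_orderOf_eq_one, one_zpow]
  · have h2 : r ∣ n2 := hd.trans (orderOf_dvd_of_pow_eq_one (by
      rw [← zpow_natCast, ← zpow_mul, mul_assoc, ← Nat.cast_mul, ← hn2, mul_comm,
        zpow_mul, zpow_natCast, pow_orderOf_eq_one, one_zpow]))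
    refine (hu r (hg r hr (h2.trans (hn2 ▸ dvd_mul_left n2 n1)))).resolve_left fun hrs => hnot r hrs h2

/-- The product class attached to a pair of classes. -/
noncomputable def prodClass {s t : Finset ℕ} (D : Cl G s)
    (E : Cl (centralizer ({rep D} : Set G)) t) : ConjClasses G :=
  ConjClasses.mk (rep D * ((rep E : centralizer ({rep D} : Set G)) : G))

/-- Every class is a product class. -/
lemma exists_prodClass [Finite G] {u s t : Finset ℕ} (hs : ∀ q ∈ s, q.Prime)
    (hu : ∀ r ∈ u, r ∈ s ∨ r ∈ t) (C : Cl G u) :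
    ∃ (D : Cl G s) (E : Cl (centralizer ({rep D} : Set G)) t), prodClass D E = C.1 := by
  obtain ⟨g, hg⟩ := ConjClasses.exists_rep C.1
  obtain ⟨a, b, hab, rfl, ha, hb⟩ := exists_parts hs hu (piEl_of_cl C hg)
  let D := clOf ha
  obtain ⟨c, hc⟩ := isConj_iff.1 (ConjClasses.mk_eq_mk_iff_isConj.1 ((mk_rep D).trans rfl))
  -- `c` carries the representative to `a`
  let b' : centralizer ({rep D} : Set G) := ⟨c⁻¹ * b * c, mem_centralizer_singleton_iff.2 (by
    have h1 : rep D = c⁻¹ * a * c := by rw [← hc]; group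
    rw [h1]
    calc c⁻¹ * b * c * (c⁻¹ * a * c) = c⁻¹ * (b * a) * c := by group
      _ = c⁻¹ * (a * b) * c := by rw [hab.eq]
      _ = _ := by group)⟩
  have hb' : PiEl t b' := piEl_coe.1 (by simpa [b'] using hb.conj c⁻¹)
  refine ⟨D, clOf hb', ?_⟩
  obtain ⟨d, hd⟩ := isConj_iff.1 (ConjClasses.mk_eq_mk_iff_isConj.1 (mk_rep (clOf hb')))
  rw [← hg]
  unfold prodClass
  refine ConjClasses.mk_eq_mk_iff_isConj.2 (isConj_iff.2 ⟨c * (d : G), ?_⟩)
  have hd1 : (d : G) * rep D = rep D * (d : G) := mem_centralizer_singleton_iff.1 d.2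
  let e : centralizer ({rep D} : Set G) := rep (clOf hb')
  have hd2 : (d : G) * (e : G) * (d : G)⁻¹ = c⁻¹ * b * c := congrArg Subtype.val hd
  calc c * (d : G) * (rep D * (e : G)) * (c * (d : G))⁻¹
      = c * ((d : G) * rep D * (d : G)⁻¹) * ((d : G) * (e : G) * (d : G)⁻¹) * c⁻¹ := by group
    _ = c * (rep D * d * (d : G)⁻¹) * (c⁻¹ * b * c) * c⁻¹ := by rw [hd1, hd2]
    _ = (c * rep D * c⁻¹) * b := by group
    _ = a * b := by rw [hc]

/-- Classes of `u`-elements are at most the sum over classes of the first part. -/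
lemma card_cl_le_sigma [Finite G] {u s t : Finset ℕ} (hs : ∀ q ∈ s, q.Prime)
    (hu : ∀ r ∈ u, r ∈ s ∨ r ∈ t) (P : Cl G s → Prop) :
    Nat.card (Cl G u) ≤
      Nat.card {C : ConjClasses G // ∃ D, P D ∧ ∃ E : Cl (centralizer ({rep D} : Set G)) t, prodClass D E = C}
        + Nat.card (Σ D : {D : Cl G s // ¬ P D}, Cl (centralizer ({rep D.1} : Set G)) t) := by
  classical
  choose D E hE using exists_prodClass (G := G) (t := t) hs hu
  let toC : {C : ConjClasses G // ∃ D, P D ∧ ∃ E : Cl (centralizer ({rep D} : Set G)) t, prodClass D E = C}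
      ⊕ (Σ D : {D : Cl G s // ¬ P D}, Cl (centralizer ({rep D.1} : Set G)) t) → ConjClasses G :=
    Sum.elim Subtype.val fun z => prodClass z.1.1 z.2
  let f : Cl G u → _ ⊕ _ := fun C =>
    if h : P (D C) then Sum.inl (⟨C.1, D C, h, E C, hE C⟩ :
      {C : ConjClasses G // ∃ D, P D ∧ ∃ E : Cl (centralizer ({rep D} : Set G)) t, prodClass D E = C})
    else Sum.inr (⟨⟨D C, h⟩, E C⟩ : Σ D : {D : Cl G s // ¬ P D}, Cl (centralizer ({rep D.1} : Set G)) t)
  have hf : ∀ C, toC (f C) = C.1 := by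
    intro C
    by_cases h : P (D C)
    · simp [f, toC, dif_pos h]
    · simp [f, toC, dif_neg h, hE C]
  exact (Nat.card_le_card_of_injective f fun C C' e => Subtype.ext (by rw [← hf C, ← hf C', e])).trans
    Nat.card_sum.le

lemma card_sigma_le {ι : Type*} [Finite ι] {κ : ι → Type*} [∀ i, Finite (κ i)] {n b : ℕ}
    (h : ∀ i, n * Nat.card (κ i) ≤ b) : n * Nat.card (Σ i, κ i) ≤ Nat.card ι * b := by
  have := Fintype.ofFinite ι
  rw [Nat.card_sigma, Finset.mul_sum, Nat.card_eq_fintype_card, ← smul_eq_mul,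
    ← Finset.card_univ, ← Finset.sum_const]
  exact Finset.sum_le_sum fun i _ => h i

/-- Counting classes by fibres of size at least `n` outside a small set. -/
lemma count_range {X Z : Type*} [Finite X] (f : X → Z) (F : Set X) (n : ℕ) (hn : 0 < n)
    (h : ∀ x, x ∉ F → n ≤ Nat.card {x' : X // f x' = f x}) :
    n * Nat.card (Set.range f) ≤ Nat.card X + (n - 1) * Nat.card F := by
  classical
  have := Fintype.ofFinite X
  rw [show Nat.card (Set.range f) = (Finset.univ.image f).card by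
      rw [← Fintype.card_coe, ← Nat.card_eq_fintype_card]
      exact Nat.card_congr (Equiv.subtypeEquivRight fun z => by simp),
    show Nat.card F = (Finset.univ.filter fun x => x ∈ F).card by
      rw [← Fintype.card_subtype, ← Nat.card_eq_fintype_card],
    Nat.card_eq_fintype_card, ← Finset.card_univ,
    Finset.card_eq_sum_card_image f Finset.univ,
    Finset.card_eq_sum_card_fiberwise (f := f) (s := Finset.univ.filter fun x => x ∈ F) (t := Finset.univ.image f)
      (fun x _ => Finset.mem_coe.2 (Finset.mem_image_of_mem f (Finset.mem_univ x))),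
    Finset.mul_sum, ← Finset.sum_add_distrib, mul_comm n, ← smul_eq_mul, ← Finset.sum_const]
  refine Finset.sum_le_sum fun z hz => ?_
  obtain ⟨x, -, rfl⟩ := Finset.mem_image.1 hz
  by_cases hF : ∃ x', f x' = f x ∧ x' ∈ F
  · obtain ⟨x', hx', hxF⟩ := hF
    have h1 : 1 ≤ (Finset.univ.filter fun y => f y = f x).card :=
      Finset.card_pos.2 ⟨x, by simp⟩
    have h2 : 1 ≤ ((Finset.univ.filter fun y => y ∈ F).filter fun y => f y = f x).card :=
      Finset.card_pos.2 ⟨x', by simp [hx', hxF]⟩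
    have := Nat.mul_le_mul_left (n - 1) h2
    omega
  · push Not at hF
    have := h x (hF x rfl)
    rw [Nat.card_eq_fintype_card, Fintype.card_subtype] at this
    omega

end Cfsg.Agent.Lib.ManyPiClasses
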