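import Cfsg.Agent.Lib.ManyPiClasses.Basic

/-!
Counting classes of `π`-elements: gluing and the basic splitting.
-/

set_option autoImplicit false

namespace Cfsg.Agent.Lib.ManyPiClasses

open Subgroup
open scoped Pointwise

universe u

variable {G : Type u} [Group G]

lemma dvd_partN_of_dvd {n d : ℕ} {s : Finset ℕ} (hs : ∀ q ∈ s, q.Prime) (hn : n ≠ 0) (h : d ∣ n)
    (hd : ∀ r : ℕ, r.Prime → r ∣ d → r ∈ s) : d ∣ partN n s := by
  have hd0 : d ≠ 0 := fun e => hn (Nat.eq_zero_of_zero_dvd (e ▸ h))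
  refine (Nat.factorization_le_iff_dvd hd0 (partN_pos hs).ne').1 fun r => ?_
  rw [partN_factorization hs]
  split_ifs with hr
  · exact (Nat.factorization_le_iff_dvd hd0 hn).2 h r
  · by_cases hrp : r.Prime
    · exact le_of_eq (Nat.factorization_eq_zero_of_not_dvd fun hrd => hr (hd r hrp hrd))
    · exact le_of_eq (Nat.factorization_eq_zero_of_not_prime d hrp)

lemma partN_singleton (n q : ℕ) : partN n {q} = q ^ n.factorization q := Finset.prod_singleton _ _

lemma card_cl_le [Finite G] {s : Finset ℕ} (hs : ∀ q ∈ s, q.Prime) :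
    Nat.card (Cl G s) ≤ partN (Nat.card G) s :=
  S4106.bound s hs G

/-- The hypothesis carried by the induction. -/
def Step (p : ℕ) (s : Finset ℕ) : Prop :=
  ∀ (X : Type u) [Group X] [Finite X], partN (Nat.card X) s < p * Nat.card (Cl X s) →
    ∃ H : Subgroup X, Group.IsNilpotent H ∧ Nat.card H = partN (Nat.card X) s

/-- A proper divisor of a prime power is at most a `q`-th of it. -/
lemma mul_le_of_proper_dvd {p q n d : ℕ} {s : Finset ℕ} (hs : ∀ r ∈ s, r.Prime) (hp : ∀ r ∈ s, p ≤ r)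
    (hq : q = p) (h : d ∣ partN n s) (hne : d ≠ partN n s) : q * d ≤ partN n s := by
  subst hq
  obtain ⟨c, hc⟩ := h
  have hc1 : c ≠ 1 := fun e => hne (by rw [hc, e, mul_one])
  have := ge_of_dvd_partN hs hp (hc ▸ dvd_mul_left c d) hc1
  calc q * d = d * q := mul_comm _ _
    _ ≤ d * c := Nat.mul_le_mul_left d this
    _ = _ := hc.symm

lemma singleton_prime {q : ℕ} (hq : q.Prime) : ∀ r ∈ ({q} : Finset ℕ), r.Prime := fun _ hr =>
  (Finset.mem_singleton.1 hr) ▸ hq

lemma piEl_of_pgroup [Finite G] {q : ℕ} [Fact q.Prime] {P : Subgroup G} (hP : IsPGroup q P) {x : G}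
    (hx : x ∈ P) : PiEl {q} x := fun r hr hd => by
  obtain ⟨k, hk⟩ := IsPGroup.iff_card.1 hP
  rw [Finset.mem_singleton]
  exact (Nat.prime_dvd_prime_iff_eq hr Fact.out).1
    (hr.dvd_of_dvd_pow (n := k) (hk ▸ hd.trans (P.orderOf_dvd_natCard hx)))

lemma exists_pow_of_piEl [Finite G] {q : ℕ} {x : G} (h : PiEl {q} x) :
    ∃ k, orderOf x = q ^ k :=
  ⟨_, Nat.eq_prime_pow_of_unique_prime_dvd (orderOf_pos x).ne' fun hd hdx =>
    Finset.mem_singleton.1 (h _ hd hdx)⟩

lemma mem_of_coprime_index [Finite G] {K : Subgroup G} [K.Normal] {x : G}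
    (h : (orderOf x).Coprime K.index) : x ∈ K := by
  refine (QuotientGroup.eq_one_iff x).1 (orderOf_eq_one_iff.1 ?_)
  refine Nat.eq_one_of_dvd_coprimes h (orderOf_map_dvd (QuotientGroup.mk' K) x) ?_
  rw [K.index_eq_card]
  exact _root_.orderOf_dvd_natCard _

lemma exists_conj_mem_sylow [Finite G] {q : ℕ} [Fact q.Prime] {S : Subgroup G} (P : Sylow q S) {x : G}
    (hx : x ∈ S) (h : PiEl {q} x) : ∃ e ∈ S, e * x * e⁻¹ ∈ (P : Subgroup S).map S.subtype := by
  obtain ⟨k, hk⟩ := exists_pow_of_piEl h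
  have hz : IsPGroup q (zpowers (⟨x, hx⟩ : S)) :=
    IsPGroup.of_card (n := k) (by rw [Nat.card_zpowers, Subgroup.orderOf_mk, hk])
  obtain ⟨P', hP'⟩ := hz.exists_le_sylow
  obtain ⟨e, he⟩ := MulAction.exists_smul_eq S P' P
  refine ⟨e, e.2, ⟨e * ⟨x, hx⟩ * e⁻¹, ?_, rfl⟩⟩
  rw [← he]
  exact smul_mem_pointwise_smul _ (MulAut.conj e) _ (hP' (mem_zpowers _))

/-- Gluing a nilpotent subgroup and a Sylow subgroup centralising it. -/
lemma exists_glue [Finite G] {q : ℕ} [Fact q.Prime] {R : Subgroup G} (hnil : Group.IsNilpotent R)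
    (hq : ¬ q ∣ Nat.card R) (Q : Sylow q G) (h : (Q : Subgroup G) ≤ centralizer (R : Set G)) :
    ∃ H : Subgroup G, Group.IsNilpotent H ∧ Nat.card H = q ^ (Nat.card G).factorization q * Nat.card R := by
  have hQn : Group.IsNilpotent (Q : Subgroup G) := Q.2.isNilpotent
  have hcomm : ∀ (x : R) (y : (Q : Subgroup G)), Commute (R.subtype x) ((Q : Subgroup G).subtype y) :=
    fun x y => (mem_centralizer_iff.1 (h y.2) x x.2)
  let f := MonoidHom.noncommCoprod R.subtype (Q : Subgroup G).subtype hcomm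
  have hcop : (Nat.card R).Coprime (Nat.card (Q : Subgroup G)) := by
    rw [Q.card_eq_multiplicity]
    exact Nat.Coprime.pow_right _ (((Fact.out : q.Prime).coprime_iff_not_dvd.2 hq).symm)
  have hinj : Function.Injective f := by
    rw [injective_iff_map_eq_one]
    rintro ⟨x, y⟩ hxy
    have hxy' : (x : G) * (y : G) = 1 := hxy
    have hx : (x : G) ∈ R ⊓ (Q : Subgroup G) := mem_inf.2 ⟨x.2, by
      rw [eq_inv_of_mul_eq_one_left hxy']; exact inv_mem y.2⟩
    rw [Coprime.inf_eq_bot_of_coprime hcop, mem_bot] at hx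
    rw [hx, one_mul] at hxy'
    exact Prod.ext (Subtype.ext hx) (Subtype.ext hxy')
  refine ⟨f.range, Group.nilpotent_of_surjective f.rangeRestrict f.rangeRestrict_surjective, ?_⟩
  rw [← Nat.card_congr (MonoidHom.ofInjective hinj).toEquiv, Nat.card_prod, Q.card_eq_multiplicity,
    mul_comm]

/-- A `q`-subgroup centralising `R` is small if no Sylow `q`-subgroup centralises `R`. -/
lemma small [Finite G] {q : ℕ} [Fact q.Prime] {R : Subgroup G}
    (hno : ∀ Q : Sylow q G, ¬ (Q : Subgroup G) ≤ centralizer (R : Set G)) {P : Subgroup G}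
    (hP : IsPGroup q P) (hPR : P ≤ centralizer (R : Set G)) :
    q * Nat.card P ≤ partN (Nat.card G) {q} := by
  obtain ⟨Q, hQ⟩ := hP.exists_le_sylow
  have hdvd : Nat.card P ∣ partN (Nat.card G) {q} := by
    rw [partN_singleton, ← Q.card_eq_multiplicity]
    exact card_dvd_of_le hQ
  refine mul_le_of_proper_dvd (singleton_prime Fact.out) (fun r hr => (Finset.mem_singleton.1 hr).ge) rfl hdvd ?_
  intro e
  rw [partN_singleton, ← Q.card_eq_multiplicity] at e
  exact hno Q (eq_of_le_of_card_ge hQ e.ge ▸ hPR)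

lemma card_good_le [Finite G] {s t : Finset ℕ} (P : Cl G s → Prop) :
    Nat.card {C : ConjClasses G // ∃ D, P D ∧ ∃ E : Cl (centralizer ({rep D} : Set G)) t, prodClass D E = C}
      ≤ Nat.card (Σ D : {D : Cl G s // P D}, Cl (centralizer ({rep D.1} : Set G)) t) := by
  refine Nat.card_le_card_of_surjective
    (fun z => ⟨prodClass z.1.1 z.2, z.1.1, z.1.2, z.2, rfl⟩) ?_
  rintro ⟨C, D, hD, E, hE⟩
  exact ⟨⟨⟨D, hD⟩, E⟩, Subtype.ext hE⟩

lemma card_good_add_bad [Finite G] {s : Finset ℕ} (P : Cl G s → Prop) :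
    Nat.card {D // P D} + Nat.card {D // ¬ P D} = Nat.card (Cl G s) := by
  classical
  rw [← Nat.card_sum, Nat.card_congr (Equiv.sumCompl P)]

/-- The splitting attached to a nilpotent Hall `t`-subgroup. -/
lemma split [Finite G] {p q : ℕ} [Fact q.Prime] {u t : Finset ℕ} (ht : ∀ r ∈ t, r.Prime)
    (hpt : ∀ r ∈ t, p ≤ r) (hu : ∀ r ∈ u, r ∈ ({q} : Finset ℕ) ∨ r ∈ t) (IH : Step.{u} p t)
    {R : Subgroup G} (hnil : Group.IsNilpotent R) (hR : Nat.card R = partN (Nat.card G) t)
    (P : Sylow q (centralizer (R : Set G))) :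
    ∃ g b good : ℕ, g + b = Nat.card (Cl G {q}) ∧
      g ≤ Nat.card ((P : Subgroup (centralizer (R : Set G))).map (centralizer (R : Set G)).subtype) ∧
      good ≤ g * partN (Nat.card G) t ∧
      good ≤ Nat.card (Set.range fun z : ((P : Subgroup (centralizer (R : Set G))).map
        (centralizer (R : Set G)).subtype : Subgroup G) × R => ConjClasses.mk ((z.1 : G) * z.2)) ∧
      p * Nat.card (Cl G u) ≤ p * good + b * partN (Nat.card G) t := by
  classical
  set M := partN (Nat.card G) t with hM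
  set Q0 := (P : Subgroup (centralizer (R : Set G))).map (centralizer (R : Set G)).subtype with hQ0
  let IsGood : Cl G {q} → Prop := fun D => ∃ c : G, ∀ r ∈ R, c * r * c⁻¹ ∈ centralizer ({rep D} : Set G)
  -- moving a good class into `Q0`
  have hmove : ∀ D, IsGood D → ∃ c e : G, (∀ r ∈ R, c * r * c⁻¹ ∈ centralizer ({rep D} : Set G)) ∧
      e ∈ centralizer (R : Set G) ∧ e * (c⁻¹ * rep D * c) * e⁻¹ ∈ Q0 := by
    rintro D ⟨c, hc⟩
    have hx : c⁻¹ * rep D * c ∈ centralizer (R : Set G) := mem_centralizer_iff.2 fun r hr => by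
      have h1 := mem_centralizer_singleton_iff.1 (hc r hr)
      calc r * (c⁻¹ * rep D * c) = c⁻¹ * ((c * r * c⁻¹) * rep D) * c := by group
        _ = c⁻¹ * (rep D * (c * r * c⁻¹)) * c := by rw [h1]
        _ = _ := by group
    obtain ⟨e, he, he'⟩ := exists_conj_mem_sylow P hx (by simpa using (piEl_rep D).conj c⁻¹)
    exact ⟨c, e, hc, he, he'⟩
  refine ⟨Nat.card {D // IsGood D}, Nat.card {D // ¬ IsGood D},
    Nat.card {C : ConjClasses G // ∃ D, IsGood D ∧ ∃ E : Cl (centralizer ({rep D} : Set G)) t, prodClass D E = C},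
    card_good_add_bad IsGood, ?_, ?_, ?_, ?_⟩
  · choose c e hc he hmem using hmove
    refine Nat.card_le_card_of_injective
      (fun D : {D // IsGood D} => (⟨e D.1 D.2 * ((c D.1 D.2)⁻¹ * rep D.1 * c D.1 D.2) * (e D.1 D.2)⁻¹,
        hmem D.1 D.2⟩ : Q0)) fun D D' hDD => Subtype.ext (Subtype.ext ?_)
    have key : ∀ D : {D // IsGood D}, ConjClasses.mk
        (e D.1 D.2 * ((c D.1 D.2)⁻¹ * rep D.1 * c D.1 D.2) * (e D.1 D.2)⁻¹) = D.1.1 := fun D => by
      rw [← mk_rep D.1]
      exact (ConjClasses.mk_eq_mk_iff_isConj.2 (isConj_iff.2 ⟨e D.1 D.2 * (c D.1 D.2)⁻¹, by group⟩)).symm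
    rw [← key D, ← key D']
    exact congrArg (fun z : Q0 => ConjClasses.mk (z : G)) hDD
  · refine (card_good_le IsGood).trans ?_
    simpa using card_sigma_le (n := 1) (b := M)
      (κ := fun D : {D // IsGood D} => Cl (centralizer ({rep D.1} : Set G)) t) fun D => by
      rw [one_mul]
      exact (card_cl_le ht).trans (Nat.le_of_dvd (partN_pos ht) (part_sub_dvd _ t))
  · refine Nat.card_mono (Set.toFinite _) (s := {C | ∃ D, IsGood D ∧
      ∃ E : Cl (centralizer ({rep D} : Set G)) t, prodClass D E = C}) ?_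
    rintro C ⟨D, hD, E, rfl⟩
    obtain ⟨c, e, hc, he, hmem⟩ := hmove D hD
    let φ : R →* centralizer ({rep D} : Set G) :=
      ((MulAut.conj c).toMonoidHom.comp R.subtype).codRestrict _ fun r => hc r r.2
    have hφ : Function.Injective φ := fun a b hab =>
      Subtype.ext ((MulAut.conj c).injective (congrArg Subtype.val hab))
    have hφn : Group.IsNilpotent φ.range :=
      Group.nilpotent_of_surjective φ.rangeRestrict φ.rangeRestrict_surjective
    have hφc : Nat.card φ.range = partN (Nat.card (centralizer ({rep D} : Set G))) t := by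
      have h1 : Nat.card φ.range = M := by rw [← Nat.card_congr (MonoidHom.ofInjective hφ).toEquiv, hR]
      refine Nat.dvd_antisymm (dvd_partN_of_dvd ht Nat.card_pos.ne' (card_subgroup_dvd_card _)
        fun r hr hd => mem_of_dvd_partN (n := Nat.card G) ht hr (by rw [h1] at hd; exact hd)) ?_
      rw [h1]
      exact part_sub_dvd _ t
    obtain ⟨d, r0, hr0⟩ := exists_conj_mem ht hφn hφc (piEl_rep E)
    have hd1 : (d : G) * rep D = rep D * (d : G) := mem_centralizer_singleton_iff.1 d.2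
    let y : centralizer ({rep D} : Set G) := rep E
    have hd2 : c * (r0 : G) * c⁻¹ = (d : G) * (y : G) * (d : G)⁻¹ := congrArg Subtype.val hr0
    have he0 : e * (r0 : G) * e⁻¹ = r0 := by
      rw [← mem_centralizer_iff.1 he _ r0.2, mul_inv_cancel_right]
    refine ⟨(⟨_, hmem⟩, r0), ?_⟩
    show ConjClasses.mk (e * (c⁻¹ * rep D * c) * e⁻¹ * (r0 : G)) = ConjClasses.mk (rep D * (y : G))
    refine (ConjClasses.mk_eq_mk_iff_isConj.2 (isConj_iff.2 ⟨e * c⁻¹ * (d : G), ?_⟩)).symm
    calc e * c⁻¹ * (d : G) * (rep D * (y : G)) * (e * c⁻¹ * (d : G))⁻¹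
        = e * c⁻¹ * (((d : G) * rep D * (d : G)⁻¹) * ((d : G) * (y : G) * (d : G)⁻¹)) * c * e⁻¹ := by group
      _ = e * c⁻¹ * ((rep D * d * (d : G)⁻¹) * (c * (r0 : G) * c⁻¹)) * c * e⁻¹ := by rw [hd1, hd2]
      _ = e * (c⁻¹ * rep D * c) * e⁻¹ * (e * (r0 : G) * e⁻¹) := by group
      _ = _ := by rw [he0]
  · have hbad : ∀ D : {D // ¬ IsGood D}, p * Nat.card (Cl (centralizer ({rep D.1} : Set G)) t) ≤ M := by
      rintro ⟨D, hD⟩
      by_contra hlt
      rw [not_le] at hlt
      have hdvd := part_sub_dvd (centralizer ({rep D} : Set G)) t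
      obtain ⟨R1, hR1n, hR1c⟩ := IH (centralizer ({rep D} : Set G))
        (lt_of_le_of_lt (Nat.le_of_dvd (partN_pos ht) hdvd) hlt)
      rcases eq_or_ne (partN (Nat.card (centralizer ({rep D} : Set G))) t) M with heq | hne
      · refine hD ?_
        let R2 := R1.map (centralizer ({rep D} : Set G)).subtype
        have hR2c : Nat.card R2 = M := by
          rw [← Nat.card_congr (R1.equivMapOfInjective _ (subtype_injective _)).toEquiv, hR1c, heq]
        have hR2n : Group.IsNilpotent R2 :=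
          Group.nilpotent_of_surjective (h := hR1n) (R1.equivMapOfInjective _ (subtype_injective _)).toMonoidHom
            (R1.equivMapOfInjective _ (subtype_injective _)).surjective
        obtain ⟨x, hx⟩ := S0581.result R2 R hR2n (hall_of_card ht hR2c) fun r hr hd => by
          rw [hR2c, hM]; rwa [hR] at hd
        refine ⟨x⁻¹, fun r hr => ?_⟩
        have h2 := Coprime.mem_conj_smul.1 (hx hr)
        have h3 : x⁻¹ * r * x ∈ centralizer ({rep D} : Set G) := map_subtype_le _ h2
        simpa using h3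
      · have h1 : p * partN (Nat.card (centralizer ({rep D} : Set G))) t ≤ M :=
          mul_le_of_proper_dvd ht hpt rfl hdvd hne
        exact absurd (le_trans (Nat.mul_le_mul_left p (card_cl_le ht)) h1) (not_le.2 hlt)
    have hk := Nat.mul_le_mul_left p (card_cl_le_sigma (singleton_prime (Fact.out : q.Prime)) hu IsGood)
    rw [Nat.mul_add] at hk
    exact hk.trans (Nat.add_le_add_left (card_sigma_le hbad) _)

end Cfsg.Agent.Lib.ManyPiClasses
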