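import Cfsg.Agent.Lib.ManyPiClasses.Build

/-!
Counting classes of `π`-elements: the three cases.
-/

set_option autoImplicit false

namespace Cfsg.Agent.Lib.ManyPiClasses

open Subgroup
open scoped Pointwise

universe u

variable {G : Type u} [Group G]

lemma two_le_card {X : Type*} [Finite X] (a b : X) (h : a ≠ b) : 2 ≤ Nat.card X := by
  have : Nontrivial X := ⟨a, b, h⟩
  exact Finite.one_lt_card

/-- A small index centralised subgroup forces trivial action. -/
lemma centralizes_of_small_index [Finite G] {q : ℕ} [Fact q.Prime] {P T Q : Subgroup G}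
    (hT : ∀ u ∈ Q, ∀ x ∈ T, u * x = x * u) (hPQ : ∀ u ∈ Q, ∀ x ∈ P, u * x * u⁻¹ ∈ P)
    (hQ : IsPGroup q Q) (hco : ¬ q ∣ Nat.card P) (hidx : T.relIndex P < q) :
    ∀ u ∈ Q, ∀ x ∈ P, u * x = x * u := by
  intro u hu x hx
  have hpow : ∀ i : ℕ, u ^ i * x * (u ^ i)⁻¹ ∈ P := fun i => hPQ _ (pow_mem hu i) x hx
  have hfun : ¬ Function.Injective
      (fun i : Fin q => (QuotientGroup.mk (⟨_, hpow i⟩ : P) : P ⧸ T.subgroupOf P)) := by
    intro h
    have := Nat.card_le_card_of_injective _ h
    rw [Nat.card_fin, ← index_eq_card] at this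
    exact (not_le.2 hidx) this
  rw [Function.not_injective_iff] at hfun
  obtain ⟨i', j', hij, hne⟩ := hfun
  wlog hlt : (i' : ℕ) < (j' : ℕ) generalizing i' j'
  · exact this j' i' hij.symm hne.symm
      (lt_of_le_of_ne (not_lt.1 hlt) fun e => hne (Fin.ext e.symm))
  obtain ⟨d, hd⟩ := Nat.exists_eq_add_of_le hlt.le
  have hd0 : 0 < d := by omega
  have hdq : d < q := by have := j'.isLt; omega
  set x' := u ^ (i' : ℕ) * x * (u ^ (i' : ℕ))⁻¹ with hx'
  set v := u ^ d with hv
  set c := x'⁻¹ * (v * x' * v⁻¹) with hc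
  have hjx : u ^ (j' : ℕ) * x * (u ^ (j' : ℕ))⁻¹ = v * x' * v⁻¹ := by
    rw [hv, hx', hd, add_comm, pow_add]; group
  have hcT : c ∈ T := by
    have h1 := QuotientGroup.eq.1 hij
    rw [mem_subgroupOf] at h1
    have h2 : (u ^ (i' : ℕ) * x * (u ^ (i' : ℕ))⁻¹)⁻¹ * (u ^ (j' : ℕ) * x * (u ^ (j' : ℕ))⁻¹) ∈ T := h1
    rwa [hjx] at h2
  have hvQ : v ∈ Q := pow_mem hu d
  have hvc : v * c = c * v := hT v hvQ c hcT
  have hvx : v * x' * v⁻¹ = x' * c := by rw [hc]; group
  have hvn : ∀ n : ℕ, v ^ n * x' * (v ^ n)⁻¹ = x' * c ^ n := by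
    intro n
    induction n with
    | zero => simp
    | succ n ih =>
      rw [pow_succ' v, mul_inv_rev,
        show v * v ^ n * x' * ((v ^ n)⁻¹ * v⁻¹) = v * (v ^ n * x' * (v ^ n)⁻¹) * v⁻¹ by group, ih,
        show v * (x' * c ^ n) * v⁻¹ = (v * x' * v⁻¹) * (v * c ^ n * v⁻¹) by group,
        ((Commute.pow_right (show Commute v c from hvc) n)).eq, mul_inv_cancel_right, pow_succ' c, hvx,
        mul_assoc]
  have hcn : c ^ orderOf v = 1 := by
    have h := hvn (orderOf v)
    rw [pow_orderOf_eq_one, one_mul, inv_one, mul_one] at h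
    exact mul_left_cancel (a := x') (by rw [mul_one]; exact h.symm)
  obtain ⟨k, hk⟩ := IsPGroup.iff_orderOf.1 hQ ⟨v, hvQ⟩
  rw [Subgroup.orderOf_mk] at hk
  have hcP : c ∈ P := P.mul_mem (P.inv_mem (hpow i')) (hPQ v hvQ _ (hpow i'))
  have hc1 : c = 1 := by
    refine orderOf_eq_one_iff.1 (Nat.eq_one_of_dvd_coprimes (a := q ^ k) (b := Nat.card P)
      (Nat.Coprime.pow_left k ((Fact.out : q.Prime).coprime_iff_not_dvd.2 hco)) ?_
      (P.orderOf_dvd_natCard hcP))
    rw [← hk]
    exact orderOf_dvd_of_pow_eq_one hcn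
  have hcomm : Commute v x' := by
    have : x'⁻¹ * (v * x' * v⁻¹) = 1 := hc.symm.trans hc1
    show v * x' = x' * v
    calc v * x' = x' * (x'⁻¹ * (v * x' * v⁻¹)) * v := by group
      _ = x' * v := by rw [this, mul_one]
  obtain ⟨k', hk'⟩ := IsPGroup.iff_orderOf.1 hQ ⟨u, hu⟩
  rw [Subgroup.orderOf_mk] at hk'
  obtain ⟨w, hw⟩ : ∃ w : ℕ, v ^ w = u := by
    refine exists_pow_eq_self_of_coprime ?_
    rw [hk']
    exact Nat.Coprime.pow_right k' (((Fact.out : q.Prime).coprime_iff_not_dvd.2
      fun h => absurd (Nat.le_of_dvd hd0 h) (not_le.2 hdq)).symm)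
  have hux' : Commute u x' := hw ▸ hcomm.pow_left w
  have h1 : (u ^ (i' : ℕ))⁻¹ * x' * u ^ (i' : ℕ) = x := by rw [hx']; group
  have h2 : Commute (u ^ (i' : ℕ)) x' := hux'.pow_left _
  rw [mul_assoc, ← h2.eq, inv_mul_cancel_left] at h1
  rw [← h1]
  exact hux'.eq

lemma arith_normal_sylow {p q a M k g b : ℕ} (hp : 2 ≤ p) (hpq : p < q) (hk : a * M < p * k)
    (hkb : q * k ≤ a * (q * g + b)) (hsum : g + b ≤ M) (hg : p ^ 2 * g ≤ M) : False := by
  obtain ⟨i, rfl⟩ : ∃ i, q = i + 1 := ⟨q - 1, by omega⟩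
  obtain ⟨j, rfl⟩ : ∃ j, p = j + 1 := ⟨p - 1, by omega⟩
  have h1 : (i + 1) * (j + 1) * (a * M) < (i + 1) * (j + 1) * ((j + 1) * k) :=
    Nat.mul_lt_mul_of_pos_left hk (by positivity)
  have h2 : (i + 1) * (j + 1) * ((j + 1) * k) ≤ a * ((j + 1) ^ 2 * ((i + 1) * g + b)) := by
    nlinarith [Nat.mul_le_mul_left ((j + 1) ^ 2) hkb]
  have h3 : (j + 1) ^ 2 * ((i + 1) * g + b) ≤ (i + (j + 1) ^ 2) * M := by
    nlinarith [Nat.mul_le_mul_left i hg, Nat.mul_le_mul_left ((j + 1) ^ 2) hsum]
  have h4 : (i + 1) * (j + 1) * (a * M) < (i + (j + 1) ^ 2) * (a * M) := by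
    nlinarith [Nat.mul_le_mul_left a h3]
  have h5 := Nat.lt_of_mul_lt_mul_right h4
  nlinarith

/-- Case A: a Sylow `q`-subgroup is centralised by its normaliser. -/
lemma case_normal_sylow [Finite G] {p q : ℕ} [Fact q.Prime] {u t : Finset ℕ} (hp : 2 ≤ p)
    (hpq : p < q) (ht : ∀ r ∈ t, r.Prime) (hpt : ∀ r ∈ t, p ≤ r) (hqt : ∀ r ∈ t, r < q)
    (hu : ∀ r ∈ u, r ∈ t ∨ r ∈ ({q} : Finset ℕ))
    (hk : partN (Nat.card G) {q} * partN (Nat.card G) t < p * Nat.card (Cl G u))
    {R : Subgroup G} (hnil : Group.IsNilpotent R) (hR : Nat.card R = partN (Nat.card G) t)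
    (hno : ∀ Q : Sylow q G, ¬ (Q : Subgroup G) ≤ centralizer (R : Set G))
    (Q : Sylow q G) (hN : normalizer ((Q : Subgroup G) : Set G) ≤ centralizer ((Q : Subgroup G) : Set G)) :
    False := by
  classical
  have hq : q.Prime := Fact.out
  set a := partN (Nat.card G) {q} with ha
  set M := partN (Nat.card G) t with hM
  have haQ : ∀ Q : Sylow q G, Nat.card (Q : Subgroup G) = a := fun Q => by
    rw [ha, partN_singleton, Q.card_eq_multiplicity]
  have hqM : ¬ q ∣ M := fun h => lt_irrefl q (hqt q (mem_of_dvd_partN (n := Nat.card G) ht hq h))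
  obtain ⟨K, hKn, hKc⟩ := S0087.result (Q : Subgroup G) Q.card_coprime_index hN
  have hKcard : Nat.card K * a = Nat.card G := by rw [← haQ Q]; exact hKc.card_mul_card
  have hKidx : K.index = a := by
    have := K.card_mul_index
    rw [← hKcard] at this
    exact Nat.eq_of_mul_eq_mul_left Nat.card_pos this
  have hKq : ¬ q ∣ Nat.card K := by
    have h1 := (Q : Subgroup G).card_mul_index
    rw [haQ, ← hKcard, mul_comm] at h1
    rw [← Nat.eq_of_mul_eq_mul_right ((haQ Q) ▸ Nat.card_pos) h1]
    exact Q.not_dvd_index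
  have hmemK : ∀ x : G, ¬ q ∣ orderOf x → x ∈ K := fun x hx => mem_of_coprime_index (by
    rw [hKidx, ha, partN_singleton]
    exact Nat.Coprime.pow_right _ ((hq.coprime_iff_not_dvd.2 hx).symm))
  have hRK : R ≤ K := fun x hx => hmemK x fun h => hqM (h.trans (hR ▸ R.orderOf_dvd_natCard hx))
  -- Frattini for `R`
  have hRKc : Nat.card (R.subgroupOf K) = partN (Nat.card K) t := by
    rw [Coprime.card_subgroupOf hRK, hR]
    exact Nat.dvd_antisymm (dvd_partN_of_dvd ht Nat.card_pos.ne' (hR ▸ card_dvd_of_le hRK)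
      fun r hr hd => mem_of_dvd_partN ht hr hd) (part_sub_dvd K t)
  have hRKn : Group.IsNilpotent (R.subgroupOf K) :=
    Group.nilpotent_of_surjective (h := hnil) (subgroupOfEquivOfLe hRK).symm.toMonoidHom
      (subgroupOfEquivOfLe hRK).symm.surjective
  have hfr : normalizer (R : Set G) ⊔ K = ⊤ := by
    refine eq_top_iff.2 fun g _ => ?_
    have hgR : MulAut.conj g • R ≤ K := fun x hx => by
      have := hKn.conj_mem _ (hRK (Coprime.mem_conj_smul.1 hx)) g
      simpa [mul_assoc] using this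
    obtain ⟨k, hkk⟩ := S0581.result (R.subgroupOf K) ((MulAut.conj g • R).subgroupOf K) hRKn
      (hall_of_card ht hRKc) fun r hr hd => by
        rwa [Coprime.card_subgroupOf hgR, Coprime.card_conj_smul, ← Coprime.card_subgroupOf hRK] at hd
    have heq : MulAut.conj g • R = MulAut.conj (k : G) • R := by
      refine eq_of_le_of_card_ge ?_ (by rw [Coprime.card_conj_smul, Coprime.card_conj_smul])
      have h := map_mono (f := K.subtype) hkk
      rwa [Coprime.map_conj_smul, map_subgroupOf_eq_of_le hgR, map_subgroupOf_eq_of_le hRK] at h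
    have hn : (k : G)⁻¹ * g ∈ normalizer (R : Set G) := by
      refine Coprime.mem_normalizer_of_conj_smul_eq ?_
      rw [map_mul, mul_smul, heq, ← mul_smul, ← map_mul, inv_mul_cancel, map_one, one_smul]
    have : g = (k : G) * ((k : G)⁻¹ * g) := by group
    rw [this, sup_comm]
    exact mul_mem_sup k.2 hn
  have hadvd : a ∣ Nat.card (normalizer (R : Set G)) := by
    have hc := Coprime.card_sup_mul_card_inf_of_le_normalizer (A := normalizer (R : Set G)) (N := K)
      (by rw [normalizer_eq_top_iff.mpr hKn]; exact le_top)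
    rw [hfr, card_top, ← hKcard, mul_assoc, mul_comm (Nat.card (normalizer (R : Set G)))] at hc
    exact ⟨_, (Nat.eq_of_mul_eq_mul_left Nat.card_pos hc).symm⟩
  obtain ⟨S, hS⟩ := Sylow.exists_subgroup_card_pow_prime q (partN_singleton (Nat.card G) q ▸ ha ▸ hadvd)
  let Q' : Sylow q G := Sylow.ofCard (S.map (normalizer (R : Set G)).subtype) (by
    rw [← Nat.card_congr (S.equivMapOfInjective _ (subtype_injective _)).toEquiv, hS])
  have hQ'R : (Q' : Subgroup G) ≤ normalizer (R : Set G) := map_subtype_le _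
  set C := centralizer ((Q' : Subgroup G) : Set G) with hC
  by_cases hdef : ∃ r ∈ t, (Nat.card C).factorization r + 2 ≤ (Nat.card G).factorization r
  · obtain ⟨r, hr, hr2⟩ := hdef
    have hr2M : r ^ 2 * partN (Nat.card C) t ∣ M := by
      refine (Nat.factorization_le_iff_dvd (mul_ne_zero (pow_ne_zero _ (ht r hr).ne_zero) (partN_pos ht).ne')
        (partN_pos ht).ne').1 fun s => ?_
      rw [Nat.factorization_mul (pow_ne_zero _ (ht r hr).ne_zero) (partN_pos ht).ne', Finsupp.add_apply,
        (ht r hr).factorization_pow, partN_factorization ht, partN_factorization ht, Finsupp.single_apply]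
      have hle := (Nat.factorization_le_iff_dvd (Nat.card_pos (α := C)).ne' (Nat.card_pos (α := G)).ne').2
        (card_subgroup_dvd_card C) s
      split_ifs with h1 h2 h2
      · subst h1; omega
      · exact absurd (h1 ▸ hr) h2
      · simpa using hle
      · simp
    -- the classes split by the part prime to `q`
    let IsGood : Cl G t → Prop := fun D => partN (Nat.card (centralizer ({rep D} : Set G))) {q} = a
    have hb1 : ∀ D : Cl G t, Nat.card (Cl (centralizer ({rep D} : Set G)) {q}) ≤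
        partN (Nat.card (centralizer ({rep D} : Set G))) {q} := fun D => card_cl_le (singleton_prime hq)
    have hgood : Nat.card {D // IsGood D} ≤ Nat.card (Cl C t) := by
      have hmv : ∀ D : {D // IsGood D}, ∃ w : G, w * rep D.1 * w⁻¹ ∈ C := by
        rintro ⟨D, hD⟩
        obtain ⟨S', hS'⟩ := Sylow.exists_subgroup_card_pow_prime q
          (G := centralizer ({rep D} : Set G)) (n := (Nat.card G).factorization q) (by
            rw [← partN_singleton, ← ha, ← hD]; exact partN_dvd (singleton_prime hq) Nat.card_pos.ne')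
        let Q'' : Sylow q G := Sylow.ofCard (S'.map (centralizer ({rep D} : Set G)).subtype) (by
          rw [← Nat.card_congr (S'.equivMapOfInjective _ (subtype_injective _)).toEquiv, hS'])
        obtain ⟨w, hw⟩ := MulAction.exists_smul_eq G Q'' Q'
        refine ⟨w, mem_centralizer_iff.2 fun z hz => ?_⟩
        rw [← hw] at hz
        have h1 : w⁻¹ * z * w ∈ centralizer ({rep D} : Set G) :=
          map_subtype_le S' (Coprime.mem_conj_smul.1 hz)
        have h2 := mem_centralizer_singleton_iff.1 h1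
        calc z * (w * rep D * w⁻¹) = w * ((w⁻¹ * z * w) * rep D) * w⁻¹ := by group
          _ = w * (rep D * (w⁻¹ * z * w)) * w⁻¹ := by rw [h2]
          _ = _ := by group
      choose w hw using hmv
      refine Nat.card_le_card_of_injective
        (fun D => clOf (g := (⟨_, hw D⟩ : C)) (piEl_coe.1 ((piEl_rep D.1).conj (w D)))) fun D D' h => ?_
      obtain ⟨e, he⟩ := isConj_iff.1 (ConjClasses.mk_eq_mk_iff_isConj.1 (congrArg Subtype.val h))
      refine Subtype.ext (Subtype.ext ?_)
      rw [← mk_rep D.1, ← mk_rep D'.1]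
      refine ConjClasses.mk_eq_mk_iff_isConj.2 (isConj_iff.2 ⟨(w D')⁻¹ * (e : G) * w D, ?_⟩)
      have he' : (e : G) * (w D * rep D.1 * (w D)⁻¹) * (e : G)⁻¹ = w D' * rep D'.1 * (w D')⁻¹ :=
        congrArg Subtype.val he
      calc (w D')⁻¹ * (e : G) * w D * rep D.1 * ((w D')⁻¹ * (e : G) * w D)⁻¹
          = (w D')⁻¹ * ((e : G) * (w D * rep D.1 * (w D)⁻¹) * (e : G)⁻¹) * w D' := by group
        _ = _ := by rw [he']; group
    have hg2 : p ^ 2 * Nat.card {D // IsGood D} ≤ M :=
      le_trans (Nat.mul_le_mul (Nat.pow_le_pow_left (hpt r hr) 2) (hgood.trans (card_cl_le ht)))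
        (Nat.le_of_dvd (partN_pos ht) hr2M)
    refine arith_normal_sylow hp hpq hk ?_ ((card_good_add_bad IsGood).le.trans (card_cl_le ht)) hg2
    have hk1 := (card_cl_le_sigma (G := G) ht hu IsGood).trans
      (Nat.add_le_add_right (card_good_le IsGood) _)
    have hk2 := Nat.mul_le_mul_left q hk1
    rw [Nat.mul_add] at hk2
    refine hk2.trans (le_trans (Nat.add_le_add (card_sigma_le (b := q * a) fun D => ?_)
      (card_sigma_le (b := a) fun D => ?_)) (le_of_eq (by ring)))
    · exact Nat.mul_le_mul_left q ((hb1 D.1).trans_eq D.2)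
    · refine le_trans (Nat.mul_le_mul_left q (hb1 D.1)) (mul_le_of_proper_dvd (singleton_prime hq)
        (fun s hs => (Finset.mem_singleton.1 hs).ge) rfl (part_sub_dvd _ _) D.2)
  · push Not at hdef
    -- otherwise `Q'` centralises `R`
    have hcopQK : (Nat.card (Q' : Subgroup G)).Coprime (Nat.card K) := by
      rw [haQ, ha, partN_singleton]
      exact Nat.Coprime.pow_left _ (hq.coprime_iff_not_dvd.2 hKq)
    have hQ'K : (Q' : Subgroup G) ≤ normalizer (K : Set G) := by
      rw [normalizer_eq_top_iff.mpr hKn]; exact le_top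
    have hsolv : Group.IsSolvable (Q' : Subgroup G) ∨ Group.IsSolvable K := Or.inl (by
      have := Q'.2.isNilpotent
      infer_instance)
    refine hno Q' ?_
    have hRC : R ⊓ C = R := by
      refine eq_of_le_of_card_ge inf_le_left (Nat.le_of_dvd Nat.card_pos ?_)
      refine (Nat.factorization_le_iff_dvd Nat.card_pos.ne' Nat.card_pos.ne').1 fun r => ?_
      by_cases hrt : r ∈ t
      swap
      · rw [hR, hM, partN_factorization ht, if_neg hrt]; exact Nat.zero_le _
      have hr : r.Prime := ht r hrt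
      have := Fact.mk hr
      have hrq : r < q := hqt r hrt
      let Pr : Sylow r R := default
      have hPrn : (Pr : Subgroup R).Normal := inferInstance
      let U := (Pr : Subgroup R).map R.subtype
      have hUcard : Nat.card U = r ^ (Nat.card G).factorization r := by
        rw [← Nat.card_congr ((Pr : Subgroup R).equivMapOfInjective _ (subtype_injective _)).toEquiv,
          Pr.card_eq_multiplicity, hR, hM, partN_factorization ht, if_pos hrt]
      have hUR : U ≤ R := map_subtype_le _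
      have hUQ : (Q' : Subgroup G) ≤ normalizer (U : Set G) := by
        intro z hz
        obtain ⟨k, hk, hkU⟩ := Coprime.exists_mem_conj_eq_of_sylow Pr (U := MulAut.conj z • U)
          ((pointwise_smul_le_pointwise_smul_iff.mpr hUR).trans
            (Coprime.conj_smul_eq_self (hQ'R hz)).le)
          (by rw [Coprime.card_conj_smul,
            Nat.card_congr ((Pr : Subgroup R).equivMapOfInjective _ (subtype_injective _)).toEquiv])
        refine Coprime.mem_normalizer_of_conj_smul_eq ?_
        rw [← hkU]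
        refine Coprime.conj_smul_eq_self ((normal_subgroupOf_iff_le_normalizer hUR).1 ?_ hk)
        rwa [subgroupOf, comap_map_eq_self_of_injective (subtype_injective _)]
      have hKf : (Nat.card K).factorization r = (Nat.card G).factorization r := by
        rw [← hKcard, Nat.factorization_mul Nat.card_pos.ne' ((haQ Q) ▸ Nat.card_pos.ne'), Finsupp.add_apply,
          ha, partN_factorization (singleton_prime hq), if_neg (by simpa using hrq.ne), add_zero]
      have hUK : U ≤ K := hUR.trans hRK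
      let U1 : Sylow r K := Sylow.ofCard (U.subgroupOf K) (by rw [Coprime.card_subgroupOf hUK, hUcard, hKf])
      have hU1 : (U1 : Subgroup K).map K.subtype = U := map_subgroupOf_eq_of_le hUK
      let T0 : Sylow r C := default
      let T := (T0 : Subgroup C).map C.subtype
      have hTC : T ≤ C := map_subtype_le _
      have hTp : IsPGroup r T := T0.2.map _
      have hTK : T ≤ K := fun x hx => hmemK x fun h =>
        hrq.ne' (Finset.mem_singleton.1 (piEl_of_pgroup hTp hx q hq h))
      have hTQ : (Q' : Subgroup G) ≤ normalizer (T : Set G) := fun z hz => by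
        refine centralizer_le_normalizer _ ?_
        exact mem_centralizer_iff.2 fun x hx => (mem_centralizer_iff.1 (hTC hx) z hz).symm
      obtain ⟨P1, hTP1, hP1Q⟩ :=
        Coprime.exists_invariant_sylow_ge hQ'K hcopQK hsolv hTK hTp hTQ
      obtain ⟨c, hc, hcP⟩ := Coprime.exists_centralizer_conj_sylow hQ'K hcopQK hsolv U1 P1
        (by rw [hU1]; exact hUQ) hP1Q
      have hP1c : Nat.card ((P1 : Subgroup K).map K.subtype) = r ^ (Nat.card G).factorization r := by
        rw [← Nat.card_congr ((P1 : Subgroup K).equivMapOfInjective _ (subtype_injective _)).toEquiv,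
          P1.card_eq_multiplicity, hKf]
      have hidx : T.relIndex ((P1 : Subgroup K).map K.subtype) ≤ r := by
        have h1 := (T.subgroupOf ((P1 : Subgroup K).map K.subtype)).card_mul_index
        rw [Coprime.card_subgroupOf hTP1, hP1c, ← Nat.card_congr ((T0 : Subgroup C).equivMapOfInjective _
          (subtype_injective _)).toEquiv, T0.card_eq_multiplicity] at h1
        have h2 : r ^ (Nat.card G).factorization r ≤ r ^ (Nat.card C).factorization r * r := by
          rw [← pow_succ]
          exact Nat.pow_le_pow_right hr.pos (by have := hdef r hrt; omega)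
        exact Nat.le_of_mul_le_mul_left (h1.le.trans h2) (pow_pos hr.pos _)
      have hcent := centralizes_of_small_index (q := q) (P := (P1 : Subgroup K).map K.subtype) (T := T)
        (Q := (Q' : Subgroup G)) (fun z hz x hx => mem_centralizer_iff.1 (hTC hx) z hz)
        (fun z hz x hx => (mem_normalizer_iff.1 (hP1Q hz) x).1 hx) Q'.2
        (by
          rw [hP1c]
          exact fun h => hrq.ne' ((Nat.prime_dvd_prime_iff_eq hq hr).1 (hq.dvd_of_dvd_pow h)))
        (hidx.trans_lt hrq)
      have hUC : U ≤ R ⊓ C := le_inf hUR fun x hx => mem_centralizer_iff.2 fun z hz => by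
        have hx' : (c : G) * x * (c : G)⁻¹ ∈ (P1 : Subgroup K).map K.subtype := by
          refine ⟨c * ⟨x, hUK hx⟩ * c⁻¹, ?_, rfl⟩
          rw [← hcP]
          exact smul_mem_pointwise_smul _ (MulAut.conj c) _ (mem_subgroupOf.2 hx)
        have hcz : Commute z (c : G) := mem_centralizer_iff.1 hc z hz
        have h1 : Commute z ((c : G) * x * (c : G)⁻¹) := hcent z hz _ hx'
        have h2 : Commute z ((c : G)⁻¹ * ((c : G) * x * (c : G)⁻¹) * c) :=
          (hcz.inv_right.mul_right h1).mul_right hcz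
        have h3 : (c : G)⁻¹ * ((c : G) * x * (c : G)⁻¹) * c = x := by group
        rw [h3] at h2
        exact h2.eq
      rw [hR, hM, partN_factorization ht, if_pos hrt]
      exact (hr.pow_dvd_iff_le_factorization Nat.card_pos.ne').1 (hUcard ▸ card_dvd_of_le hUC)
    intro z hz
    rw [mem_centralizer_iff]
    intro x hx
    have hxC : x ∈ C := (mem_inf.1 (hRC.ge hx)).2
    exact (mem_centralizer_iff.1 hxC z hz).symm

lemma arith_central_hall {p q a M k g b good cq F : ℕ} (hp : 2 ≤ p) (hpq : p < q)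
    (hk : a * M < p * k) (hkb : p * k ≤ p * good + b * M) (hgood : good ≤ g * M)
    (hsum : g + b = cq) (hcq : p * cq ≤ a + (p - 1) * F) (hF : q * F ≤ a) (hg : q * g ≤ a) : False := by
  obtain ⟨j, rfl⟩ : ∃ j, p = j + 1 := ⟨p - 1, by omega⟩
  simp only [Nat.add_sub_cancel] at hcq
  subst hsum
  have h0 : a * M < ((j + 1) * g + b) * M := by nlinarith
  have h1 : a < (j + 1) * g + b := Nat.lt_of_mul_lt_mul_right h0
  have h2 : q * (j + 1) * a < q * (j + 1) * ((j + 1) * g + b) :=
    Nat.mul_lt_mul_of_pos_left h1 (Nat.mul_pos (by omega) (by omega))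
  have h3 : q * (j + 1) * ((j + 1) * g + b) ≤ (j * (j + 1) + q + j) * a := by
    nlinarith [Nat.mul_le_mul_left q hcq, Nat.mul_le_mul_left j hF,
      Nat.mul_le_mul_left (j * (j + 1)) hg]
  have h4 := Nat.lt_of_mul_lt_mul_right (lt_of_lt_of_le h2 h3)
  nlinarith

/-- Case I: `R` is centralised by its normaliser. -/
lemma case_central_hall [Finite G] {p q : ℕ} [Fact q.Prime] {u t : Finset ℕ} (hp : 2 ≤ p)
    (hpq : p < q) (ht : ∀ r ∈ t, r.Prime) (hpt : ∀ r ∈ t, p ≤ r) (hqt : q ∉ t)
    (hu : ∀ r ∈ u, r ∈ ({q} : Finset ℕ) ∨ r ∈ t) (IH : Step.{u} p t)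
    (hk : partN (Nat.card G) {q} * partN (Nat.card G) t < p * Nat.card (Cl G u))
    (hno : ∀ L : Subgroup G, Group.IsNilpotent L → Nat.card L = partN (Nat.card G) t →
      ∀ Q : Sylow q G, ¬ (Q : Subgroup G) ≤ centralizer (L : Set G))
    {R : Subgroup G} (hnil : Group.IsNilpotent R) (hR : Nat.card R = partN (Nat.card G) t)
    (hN : normalizer (R : Set G) ≤ centralizer (R : Set G)) : False := by
  classical
  have hq : q.Prime := Fact.out
  set a := partN (Nat.card G) {q} with ha
  set M := partN (Nat.card G) t with hM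
  have hqM : ¬ q ∣ M := fun h => hqt (mem_of_dvd_partN (n := Nat.card G) ht hq h)
  obtain ⟨K, hKn, hKc⟩ := S0087.result R (hall_of_card ht hR) hN
  have hKcard : Nat.card K * M = Nat.card G := by rw [← hR]; exact hKc.card_mul_card
  have hKidx : K.index = M := by
    have := K.card_mul_index
    rw [← hKcard] at this
    exact Nat.eq_of_mul_eq_mul_left Nat.card_pos this
  have hKM : (Nat.card K).Coprime M := by
    have h := hall_of_card ht hR
    have h1 := R.card_mul_index
    rw [hR, ← hKcard, mul_comm (Nat.card K)] at h1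
    rw [hR, Nat.eq_of_mul_eq_mul_left (partN_pos ht) h1] at h
    exact h.symm
  let Q : Sylow q G := default
  have hQK : (Q : Subgroup G) ≤ K := fun x hx => mem_of_coprime_index (by
    rw [hKidx]
    obtain ⟨i, hi⟩ := exists_pow_of_piEl (piEl_of_pgroup Q.2 hx)
    rw [hi]
    exact Nat.Coprime.pow_left i (hq.coprime_iff_not_dvd.2 hqM))
  let N := normalizer ((Q : Subgroup G) : Set G)
  have hNK : N ⊔ K = ⊤ := Q.normalizer_sup_eq_top' hQK
  have hNnorm : N ≤ normalizer (K : Set G) := by rw [normalizer_eq_top_iff.mpr hKn]; exact le_top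
  have hNKc : Nat.card (K.subgroupOf N) = Nat.card (N ⊓ K : Subgroup G) := by
    rw [Nat.card_congr ((K.subgroupOf N).equivMapOfInjective _ (subtype_injective _)).toEquiv,
      subgroupOf_map_subtype, inf_comm]
  have hidx : (K.subgroupOf N).index = M := by
    have h1 := Coprime.card_sup_mul_card_inf_of_le_normalizer hNnorm
    rw [hNK, card_top, ← hKcard, mul_assoc, mul_comm (Nat.card N)] at h1
    have h2 := (K.subgroupOf N).card_mul_index
    rw [← Nat.eq_of_mul_eq_mul_left Nat.card_pos h1, hNKc, mul_comm M] at h2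
    exact Nat.eq_of_mul_eq_mul_left Nat.card_pos h2
  obtain ⟨L0, hL0⟩ := exists_right_complement'_of_coprime (N := K.subgroupOf N) (by
    rw [hidx]
    exact Nat.Coprime.coprime_dvd_left (hNKc ▸ card_dvd_of_le inf_le_right) hKM)
  set L := L0.map N.subtype with hLdef
  have hLc : Nat.card L = M := by
    rw [← Nat.card_congr (L0.equivMapOfInjective _ (subtype_injective _)).toEquiv, ← hidx,
      hL0.symm.index_eq_card]
  have hLN : L ≤ N := map_subtype_le _
  have hLK : L ⊓ K = ⊥ := Coprime.inf_eq_bot_of_coprime (hLc ▸ hKM.symm)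
  have hRab : ∀ x ∈ R, ∀ y ∈ R, x * y = y * x := fun x hx y hy =>
    (mem_centralizer_iff.1 (hN (le_normalizer hy)) x hx)
  have hKtop : R ⊔ K = ⊤ := by rw [sup_comm]; exact hKc.sup_eq_top
  have hLab : IsMulCommutative L := by
    refine ⟨⟨fun x y => Subtype.ext ?_⟩⟩
    have hmk : ∀ z : G, ∃ r ∈ R, (QuotientGroup.mk z : G ⧸ K) = QuotientGroup.mk r := fun z => by
      obtain ⟨r, hr, k, hk, rfl⟩ := (Coprime.mem_sup_of_le_normalizer (A := R) (N := K)
        (by rw [normalizer_eq_top_iff.mpr hKn]; exact le_top)).1 (hKtop ▸ mem_top z)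
      exact ⟨r, hr, QuotientGroup.mk_mul_of_mem r hk⟩
    obtain ⟨r1, hr1, e1⟩ := hmk x
    obtain ⟨r2, hr2, e2⟩ := hmk y
    have hqc : (QuotientGroup.mk ((x : G) * y) : G ⧸ K) = QuotientGroup.mk ((y : G) * x) := by
      rw [QuotientGroup.mk_mul, QuotientGroup.mk_mul, e1, e2, ← QuotientGroup.mk_mul, hRab _ hr1 _ hr2,
        QuotientGroup.mk_mul]
    have h1 : ((x : G) * y)⁻¹ * ((y : G) * x) ∈ L ⊓ K :=
      mem_inf.2 ⟨L.mul_mem (L.inv_mem (L.mul_mem x.2 y.2)) (L.mul_mem y.2 x.2), QuotientGroup.eq.1 hqc⟩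
    rw [hLK, mem_bot, inv_mul_eq_one] at h1
    exact h1
  have hLnil : Group.IsNilpotent L := by
    open scoped IsMulCommutative in
    exact inferInstance
  let P : Sylow q (centralizer (L : Set G)) := default
  obtain ⟨g, b, good, hsum, hgQ, hgM, -, hkb⟩ := split ht hpt hu IH hLnil hLc P
  let F : Set (Q : Subgroup G) := {z | (z : G) ∈ centralizer (L : Set G)}
  have hFc : q * Nat.card F ≤ a := by
    have e : Nat.card F = Nat.card ((Q : Subgroup G) ⊓ centralizer (L : Set G) : Subgroup G) :=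
      Nat.card_congr
        { toFun := fun z => ⟨z.1.1, mem_inf.2 ⟨z.1.2, z.2⟩⟩
          invFun := fun z => ⟨⟨z.1, (mem_inf.1 z.2).1⟩, (mem_inf.1 z.2).2⟩
          left_inv := fun _ => rfl
          right_inv := fun _ => rfl }
    rw [e]
    exact small (hno L hLnil hLc) (Q.2.to_le inf_le_left) inf_le_right
  have hgq : q * g ≤ a := le_trans (Nat.mul_le_mul_left q hgQ)
    (small (hno L hLnil hLc) (P.2.map _) (map_subtype_le _))
  have hcq : p * Nat.card (Cl G {q}) ≤ a + (p - 1) * Nat.card F := by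
    have hr := count_range (fun z : (Q : Subgroup G) => ConjClasses.mk (z : G)) F p (by omega) fun x hx => ?_
    · rw [show Nat.card (Q : Subgroup G) = a by rw [ha, partN_singleton, Q.card_eq_multiplicity]] at hr
      refine le_trans (Nat.mul_le_mul_left p ?_) hr
      refine Nat.card_le_card_of_injective (fun D => ⟨D.1, ?_⟩)
        fun D D' h => Subtype.ext (congrArg Subtype.val h :)
      obtain ⟨e, -, he⟩ := exists_conj_mem_sylow (Q.subtype (N := ⊤) le_top) (mem_top (rep D)) (piEl_rep D)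
      refine ⟨⟨e * rep D * e⁻¹, ?_⟩, ?_⟩
      · rwa [Sylow.coe_subtype, map_subgroupOf_eq_of_le le_top] at he
      · rw [← mk_rep D]
        exact (ConjClasses.mk_eq_mk_iff_isConj.2 (isConj_iff.2 ⟨e, rfl⟩)).symm
    · let S := (centralizer ({(x : G)} : Set G)).subgroupOf L
      have hS1 : S.index ≠ 1 := fun h => hx (mem_centralizer_iff.2 fun y hy => by
        have : (⟨y, hy⟩ : L) ∈ S := (index_eq_one.1 h) ▸ mem_top _
        exact mem_centralizer_singleton_iff.1 (mem_subgroupOf.1 this))
      have hSd : S.index ∣ M := hLc ▸ ⟨Nat.card S, (S.index_mul_card).symm⟩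
      refine (ge_of_dvd_partN ht hpt hSd hS1).trans ?_
      rw [index_eq_card]
      have hmem : ∀ c : L, (c : G) * x * (c : G)⁻¹ ∈ (Q : Subgroup G) := fun c =>
        (mem_normalizer_iff.1 (hLN c.2) _).1 x.2
      refine Nat.card_le_card_of_injective (fun z => ⟨⟨_, hmem z.out⟩,
        (ConjClasses.mk_eq_mk_iff_isConj.2 (isConj_iff.2 ⟨(z.out : G), rfl⟩)).symm⟩) fun z w h => ?_
      have h1 : (z.out : G) * x * (z.out : G)⁻¹ = (w.out : G) * x * (w.out : G)⁻¹ :=
        congrArg Subtype.val (congrArg Subtype.val h)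
      rw [← z.out_eq, ← w.out_eq]
      refine QuotientGroup.eq.2 (mem_subgroupOf.2 (mem_centralizer_singleton_iff.2 ?_))
      show (z.out : G)⁻¹ * (w.out : G) * x = x * ((z.out : G)⁻¹ * (w.out : G))
      calc (z.out : G)⁻¹ * (w.out : G) * x
          = (z.out : G)⁻¹ * ((w.out : G) * x * (w.out : G)⁻¹) * w.out := by group
        _ = _ := by rw [← h1]; group
  exact arith_central_hall hp hpq hk hkb hgM hsum hcq hFc hgq

lemma arith_generic {p q a M k g b good cq S : ℕ} (hp : 2 ≤ p) (hpq : p < q)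
    (hk : a * M < p * k) (hkb : p * k ≤ p * good + b * M) (hgood : good ≤ g * M)
    (hsum : g + b = cq) (hcq : 2 * q * cq ≤ (q + 1) * a) (hS : q * S ≤ a)
    (hr : 2 * p * good ≤ (p + 1) * S * M) : False := by
  obtain ⟨j, rfl⟩ : ∃ j, p = j + 1 := ⟨p - 1, by omega⟩
  subst hsum
  have h0 : a * M < j * good + (g + b) * M := by nlinarith
  have h1 : 2 * (j + 1) * q * (a * M) < 2 * (j + 1) * q * (j * good + (g + b) * M) :=
    Nat.mul_lt_mul_of_pos_left h0 (Nat.mul_pos (by omega) (by omega))
  have h2 : 2 * (j + 1) * q * (j * good + (g + b) * M) ≤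
      (j * (j + 2) + (j + 1) * (q + 1)) * (a * M) := by
    nlinarith [Nat.mul_le_mul_left (j * q) hr, Nat.mul_le_mul_left (j * (j + 2) * M) hS,
      Nat.mul_le_mul_left ((j + 1) * M) hcq]
  have h3 := Nat.lt_of_mul_lt_mul_right (lt_of_lt_of_le h1 h2)
  nlinarith

/-- Case II: the generic case. -/
lemma case_generic [Finite G] {p q : ℕ} [Fact q.Prime] {u t : Finset ℕ} (hp : 2 ≤ p)
    (hpq : p < q) (ht : ∀ r ∈ t, r.Prime) (hpt : ∀ r ∈ t, p ≤ r)
    (hu : ∀ r ∈ u, r ∈ ({q} : Finset ℕ) ∨ r ∈ t) (IH : Step.{u} p t)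
    (hk : partN (Nat.card G) {q} * partN (Nat.card G) t < p * Nat.card (Cl G u))
    {R : Subgroup G} (hnil : Group.IsNilpotent R) (hR : Nat.card R = partN (Nat.card G) t)
    (hno : ∀ Q : Sylow q G, ¬ (Q : Subgroup G) ≤ centralizer (R : Set G))
    {n : G} (hn : n ∈ normalizer (R : Set G)) (hnc : n ∉ centralizer (R : Set G))
    (Q : Sylow q G) {m : G} (hm : m ∈ normalizer ((Q : Subgroup G) : Set G))
    (hmc : m ∉ centralizer ((Q : Subgroup G) : Set G)) : False := by
  classical
  have hq : q.Prime := Fact.out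
  set a := partN (Nat.card G) {q} with ha
  set M := partN (Nat.card G) t with hM
  have haQ : Nat.card (Q : Subgroup G) = a := by rw [ha, partN_singleton, Q.card_eq_multiplicity]
  let P : Sylow q (centralizer (R : Set G)) := default
  set Q0 := (P : Subgroup (centralizer (R : Set G))).map (centralizer (R : Set G)).subtype with hQ0
  obtain ⟨g, b, good, hsum, -, hgM, hrange, hkb⟩ := split ht hpt hu IH hnil hR P
  have hQ0C : Q0 ≤ centralizer (R : Set G) := map_subtype_le _
  have hS : q * Nat.card Q0 ≤ a := small hno (P.2.map _) hQ0C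
  -- classes of `q`-elements
  let F : Set (Q : Subgroup G) := {z | m * (z : G) * m⁻¹ = (z : G)}
  have hFc : q * Nat.card F ≤ a := by
    let S : Subgroup (Q : Subgroup G) := (centralizer ({m} : Set G)).subgroupOf (Q : Subgroup G)
    have e : Nat.card F = Nat.card S := Nat.card_congr (Equiv.subtypeEquivRight fun z => by
      show m * (z : G) * m⁻¹ = (z : G) ↔ z ∈ S
      rw [mem_subgroupOf, mem_centralizer_singleton_iff, mul_inv_eq_iff_eq_mul]
      exact eq_comm)
    rw [e]
    refine mul_le_of_proper_dvd (singleton_prime hq) (fun s hs => (Finset.mem_singleton.1 hs).ge) rfl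
      (ha ▸ haQ ▸ card_subgroup_dvd_card S) fun h => hmc (mem_centralizer_iff.2 fun z hz => ?_)
    have hStop : S = ⊤ := eq_top_of_card_eq S (h.trans haQ.symm)
    have : (⟨z, hz⟩ : (Q : Subgroup G)) ∈ S := hStop ▸ mem_top _
    exact mem_centralizer_singleton_iff.1 (mem_subgroupOf.1 this)
  have hcq : 2 * q * Nat.card (Cl G {q}) ≤ (q + 1) * a := by
    have hr := count_range (fun z : (Q : Subgroup G) => ConjClasses.mk (z : G)) F 2 (by omega) fun x hx =>
      two_le_card ⟨x, rfl⟩ ⟨⟨m * x * m⁻¹, (mem_normalizer_iff.1 hm _).1 x.2⟩,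
        (ConjClasses.mk_eq_mk_iff_isConj.2 (isConj_iff.2 ⟨m, rfl⟩)).symm⟩
        fun e => hx (congrArg (fun z => ((z : {z : (Q : Subgroup G) // _}).1 : G)) e).symm
    rw [haQ] at hr
    have hle : Nat.card (Cl G {q}) ≤
        Nat.card (Set.range fun z : (Q : Subgroup G) => ConjClasses.mk (z : G)) := by
      refine Nat.card_le_card_of_injective (fun D => ⟨D.1, ?_⟩)
        fun D D' h => Subtype.ext (congrArg Subtype.val h :)
      obtain ⟨e, -, he⟩ := exists_conj_mem_sylow (Q.subtype (N := ⊤) le_top) (mem_top (rep D)) (piEl_rep D)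
      refine ⟨⟨e * rep D * e⁻¹, ?_⟩, ?_⟩
      · rwa [Sylow.coe_subtype, map_subgroupOf_eq_of_le le_top] at he
      · rw [← mk_rep D]
        exact (ConjClasses.mk_eq_mk_iff_isConj.2 (isConj_iff.2 ⟨e, rfl⟩)).symm
    calc 2 * q * Nat.card (Cl G {q}) = q * (2 * Nat.card (Cl G {q})) := by ring
      _ ≤ q * (a + (2 - 1) * Nat.card F) :=
          Nat.mul_le_mul_left q (le_trans (Nat.mul_le_mul_left 2 hle) hr)
      _ = q * a + q * Nat.card F := by simp [mul_add]
      _ ≤ q * a + a := Nat.add_le_add_left hFc _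
      _ = _ := by ring
  -- adjust `n` to normalise `Q0`
  have hnC : ∀ z ∈ centralizer (R : Set G), n * z * n⁻¹ ∈ centralizer (R : Set G) := fun z hz =>
    mem_centralizer_iff.2 fun r hr => by
      have h1 := mem_centralizer_iff.1 hz _ ((mem_normalizer_iff''.1 hn r).1 hr)
      calc r * (n * z * n⁻¹) = n * ((n⁻¹ * r * n) * z) * n⁻¹ := by group
        _ = n * (z * (n⁻¹ * r * n)) * n⁻¹ := by rw [h1]
        _ = _ := by group
  obtain ⟨k0, hk0, hk0Q⟩ := Coprime.exists_mem_conj_eq_of_sylow P (U := MulAut.conj n • Q0)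
    (fun z hz => by
      have := hnC _ (hQ0C (Coprime.mem_conj_smul.1 hz))
      simpa [mul_assoc] using this)
    (by rw [Coprime.card_conj_smul, hQ0,
      Nat.card_congr ((P : Subgroup (centralizer (R : Set G))).equivMapOfInjective _ (subtype_injective _)).toEquiv])
  set n' := k0⁻¹ * n with hn'
  have hn'Q : n' ∈ normalizer (Q0 : Set G) := by
    refine Coprime.mem_normalizer_of_conj_smul_eq ?_
    rw [hn', map_mul, mul_smul, ← hk0Q, ← mul_smul, ← map_mul, inv_mul_cancel, map_one, one_smul]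
  have hk0R : k0⁻¹ ∈ normalizer (R : Set G) := centralizer_le_normalizer _ (inv_mem hk0)
  have hn'R : n' ∈ normalizer (R : Set G) := mul_mem hk0R hn
  have hn'c : n' ∉ centralizer (R : Set G) := fun h => hnc (by
    rw [show n = k0 * n' by rw [hn']; group]; exact mul_mem hk0 h)
  let f : Q0 × R → ConjClasses G := fun z => ConjClasses.mk ((z.1 : G) * z.2)
  let S : Subgroup R := (centralizer ({n'} : Set G)).subgroupOf R
  let F2 : Set (Q0 × R) := {z | z.2 ∈ S}
  have hF2 : Nat.card F2 = Nat.card Q0 * Nat.card S := by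
    rw [← Nat.card_prod]
    exact Nat.card_congr
      { toFun := fun z => (z.1.1, ⟨z.1.2, z.2⟩)
        invFun := fun z => ⟨(z.1, z.2.1), z.2.2⟩
        left_inv := fun _ => rfl
        right_inv := fun _ => rfl }
  have hSM : p * Nat.card S ≤ M := by
    refine mul_le_of_proper_dvd ht hpt rfl (hM ▸ hR ▸ card_subgroup_dvd_card S)
      fun h => hn'c (mem_centralizer_iff.2 fun z hz => ?_)
    have hStop : S = ⊤ := eq_top_of_card_eq S (h.trans hR.symm)
    have : (⟨z, hz⟩ : R) ∈ S := hStop ▸ mem_top _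
    exact mem_centralizer_singleton_iff.1 (mem_subgroupOf.1 this)
  have hr2 := count_range f F2 2 (by omega) fun x hx =>
    two_le_card ⟨x, rfl⟩ ⟨(⟨n' * x.1 * n'⁻¹, (mem_normalizer_iff.1 hn'Q _).1 x.1.2⟩,
        ⟨n' * x.2 * n'⁻¹, (mem_normalizer_iff.1 hn'R _).1 x.2.2⟩),
      (ConjClasses.mk_eq_mk_iff_isConj.2 (isConj_iff.2 ⟨n', by group⟩)).symm⟩
      fun e => by
        have h2 : (x.2 : G) = n' * x.2 * n'⁻¹ := congrArg (fun z => ((z : {z : Q0 × R // _}).1.2 : G)) e
        refine hx (mem_subgroupOf.2 (mem_centralizer_singleton_iff.2 ?_))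
        exact eq_mul_inv_iff_mul_eq.1 h2
  rw [Nat.card_prod, hR, hF2, Nat.succ_sub_one, one_mul] at hr2
  have hrle : 2 * p * good ≤ (p + 1) * Nat.card Q0 * M :=
    calc 2 * p * good = p * (2 * good) := by ring
      _ ≤ p * (Nat.card Q0 * M + Nat.card Q0 * Nat.card S) :=
          Nat.mul_le_mul_left p (le_trans (Nat.mul_le_mul_left 2 hrange) hr2)
      _ = p * (Nat.card Q0 * M) + Nat.card Q0 * (p * Nat.card S) := by ring
      _ ≤ p * (Nat.card Q0 * M) + Nat.card Q0 * M := Nat.add_le_add_left (Nat.mul_le_mul_left _ hSM) _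
      _ = _ := by ring
  exact arith_generic hp hpq hk hkb hgM hsum hcq hS hrle

end Cfsg.Agent.Lib.ManyPiClasses
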