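import Cfsg.Agent.Lib.ManyPiClasses.Cases
import Cfsg.Agent.Lib.Char.Degree
import Cfsg.Agent.Lib.Char.Orthogonality

/-!
Many classes of `π`-elements force a nilpotent Hall `π`-subgroup.
-/

set_option autoImplicit false

namespace Cfsg.Agent.Lib.ManyPiClasses

open Subgroup
open scoped Pointwise

universe u

lemma step_all (p : ℕ) (hp : p.Prime) (s : Finset ℕ) :
    (∀ r ∈ s, r.Prime) → (∀ r ∈ s, p ≤ r) → Step.{u} p s := by
  induction s using Finset.induction_on_max with
  | empty =>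
    intro _ _ X _ _ _
    exact ⟨⊥, inferInstance, by simp [partN]⟩
  | insert q t hlt ih =>
    intro hs hps G _ _ hk
    classical
    have hqt : q ∉ t := fun h => lt_irrefl q (hlt q h)
    have hq : q.Prime := hs q (Finset.mem_insert_self q t)
    have := Fact.mk hq
    have ht : ∀ r ∈ t, r.Prime := fun r hr => hs r (Finset.mem_insert_of_mem hr)
    have hpt : ∀ r ∈ t, p ≤ r := fun r hr => hps r (Finset.mem_insert_of_mem hr)
    have IH := ih ht hpt
    have hu1 : ∀ r ∈ insert q t, r ∈ ({q} : Finset ℕ) ∨ r ∈ t := fun r hr =>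
      (Finset.mem_insert.1 hr).imp_left Finset.mem_singleton.2
    have hu2 : ∀ r ∈ insert q t, r ∈ t ∨ r ∈ ({q} : Finset ℕ) := fun r hr => (hu1 r hr).symm
    have hsplit : partN (Nat.card G) (insert q t) = partN (Nat.card G) {q} * partN (Nat.card G) t := by
      rw [partN_singleton]; exact Finset.prod_insert hqt
    rw [hsplit] at hk ⊢
    have hk' : Nat.card (Cl G (insert q t)) ≤ Nat.card (Cl G t) * partN (Nat.card G) {q} := by
      refine (card_cl_le_sigma ht hu2 fun _ => False).trans ?_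
      rw [Nat.card_eq_zero.2 (Or.inl ⟨fun C => by obtain ⟨D, h, -⟩ := C.2; exact h⟩), zero_add, ← one_mul (Nat.card (Sigma _))]
      refine (card_sigma_le (n := 1) (b := partN (Nat.card G) {q}) fun D => ?_).trans
        (Nat.mul_le_mul_right _ (Finite.card_subtype_le _))
      rw [one_mul]
      exact (card_cl_le (singleton_prime hq)).trans
        (Nat.le_of_dvd (partN_pos (singleton_prime hq)) (part_sub_dvd _ _))
    obtain ⟨R, hRn, hR⟩ := IH G (by
      have h1 : partN (Nat.card G) {q} * partN (Nat.card G) t <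
          partN (Nat.card G) {q} * (p * Nat.card (Cl G t)) :=
        lt_of_lt_of_le hk (le_trans (Nat.mul_le_mul_left p hk') (le_of_eq (by ring)))
      exact Nat.lt_of_mul_lt_mul_left h1)
    by_contra hcon
    have hno : ∀ L : Subgroup G, Group.IsNilpotent L → Nat.card L = partN (Nat.card G) t →
        ∀ Q : Sylow q G, ¬ (Q : Subgroup G) ≤ centralizer (L : Set G) := by
      intro L hLn hL Q hQ
      obtain ⟨H, hH, hHc⟩ := exists_glue hLn
        (fun h => hqt (mem_of_dvd_partN (n := Nat.card G) ht hq (hL ▸ h))) Q hQ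
      exact hcon ⟨H, hH, by rw [hHc, hL, partN_singleton]⟩
    have hpq : p < q := by
      rcases t.eq_empty_or_nonempty with rfl | ⟨r, hr⟩
      · have hR1 : R = ⊥ := eq_bot_of_card_eq R (by rw [hR]; simp [partN])
        refine absurd ?_ (hno R hRn hR default)
        rw [hR1]
        exact fun x _ => mem_centralizer_iff.2 fun y hy => by
          rw [SetLike.mem_coe, mem_bot] at hy; subst hy; simp
      · exact lt_of_le_of_lt (hpt r hr) (hlt r hr)
    by_cases hA : ∃ Q : Sylow q G,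
        normalizer ((Q : Subgroup G) : Set G) ≤ centralizer ((Q : Subgroup G) : Set G)
    · obtain ⟨Q, hQ⟩ := hA
      exact case_normal_sylow hp.two_le hpq ht hpt hlt hu2 hk hRn hR (hno R hRn hR) Q hQ
    by_cases hI : normalizer (R : Set G) ≤ centralizer (R : Set G)
    · exact case_central_hall hp.two_le hpq ht hpt hqt hu1 IH hk hno hRn hR hI
    obtain ⟨n, hn, hnc⟩ := SetLike.not_le_iff_exists.1 hI
    obtain ⟨m, hm, hmc⟩ := SetLike.not_le_iff_exists.1 (not_exists.1 hA (default : Sylow q G))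
    exact case_generic hp.two_le hpq ht hpt hu1 IH hk hRn hR (hno R hRn hR) hn hnc default hm hmc

variable {G : Type u} [Group G]

/-- Classes of `s`-elements are at most the classes of a nilpotent Hall `s`-subgroup. -/
lemma card_cl_le_classes [Finite G] {s : Finset ℕ} (hs : ∀ q ∈ s, q.Prime) {H : Subgroup G}
    (hnil : Group.IsNilpotent H) (hH : Nat.card H = partN (Nat.card G) s) :
    Nat.card (Cl G s) ≤ Nat.card (ConjClasses H) := by
  have h : ∀ D : Cl G s, ∃ c : G, c * rep D * c⁻¹ ∈ H := fun D => exists_conj_mem hs hnil hH (piEl_rep D)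
  choose c hc using h
  refine Nat.card_le_card_of_injective (fun D => ConjClasses.mk (⟨_, hc D⟩ : H)) fun D D' e => Subtype.ext ?_
  obtain ⟨w, hw⟩ := isConj_iff.1 (ConjClasses.mk_eq_mk_iff_isConj.1 e)
  rw [← mk_rep D, ← mk_rep D']
  refine ConjClasses.mk_eq_mk_iff_isConj.2 (isConj_iff.2 ⟨(c D')⁻¹ * (w : G) * c D, ?_⟩)
  have hw' : (w : G) * (c D * rep D * (c D)⁻¹) * (w : G)⁻¹ = c D' * rep D' * (c D')⁻¹ :=
    congrArg Subtype.val hw
  calc (c D')⁻¹ * (w : G) * c D * rep D * ((c D')⁻¹ * (w : G) * c D)⁻¹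
      = (c D')⁻¹ * ((w : G) * (c D * rep D * (c D)⁻¹) * (w : G)⁻¹) * c D' := by group
    _ = _ := by rw [hw']; group

/-- The degree bound on the number of classes. -/
lemma classes_bound (H : Type u) [Group H] [Finite H] {p : ℕ} (hp : 1 ≤ p)
    (hmin : ∀ d : ℕ, d ∣ Nat.card H → d ≠ 1 → p ≤ d) :
    p ^ 2 * Nat.card (ConjClasses H) ≤ Nat.card H + (p ^ 2 - 1) * (_root_.commutator H).index := by
  classical
  have e : (_root_.commutator H).index =
      (Finset.univ.filter fun χ : IrrCharacter H => charDegree (χ : H → ℂ) = 1).card := by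
    rw [← Char.card_charDegree_one (G := H), ← Nat.card_eq_finsetCard]
    exact Nat.card_congr (Equiv.subtypeEquivRight fun χ => by simp)
  rw [← Char.card_irr_eq_card_conjClasses (G := H), Nat.card_eq_fintype_card (α := IrrCharacter H),
    e, ← Char.sum_charDegree_sq (G := H), Finset.card_filter, Finset.mul_sum, ← Finset.sum_add_distrib,
    mul_comm (p ^ 2), ← smul_eq_mul, ← Finset.card_univ, ← Finset.sum_const]
  refine Finset.sum_le_sum fun χ _ => ?_
  have h1 : 1 ≤ p ^ 2 := Nat.one_le_pow _ _ hp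
  split_ifs with hd
  · rw [hd, one_pow, mul_one]; omega
  · rw [mul_zero, add_zero]
    exact Nat.pow_le_pow_left (hmin _ (Char.charDegree_dvd_card χ.2) hd) 2

/-- Translation of the hypotheses to a finite set of primes. -/
lemma exists_hall_of_many [Finite G] (π : Set ℕ) (hπ : ∀ q ∈ π, q.Prime) (p : ℕ) (hp : p ∈ π)
    (hmin : ∀ q ∈ π, p ≤ q) (m : ℕ) (hm : m ∣ Nat.card G) (hmπ : ∀ q : ℕ, q.Prime → q ∣ m → q ∈ π)
    (hm' : ∀ q ∈ π, ¬ q ∣ Nat.card G / m) (k : ℕ)
    (hk : k = Nat.card {C : ConjClasses G // ∀ q : ℕ, q.Prime →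
      (∃ g : G, ConjClasses.mk g = C ∧ q ∣ orderOf g) → q ∈ π})
    (hmany : m < p * k) :
    ∃ H : Subgroup G, Nat.card H = m ∧ Group.IsNilpotent H ∧
      p ^ 2 * k ≤ m + (p ^ 2 - 1) * (_root_.commutator H).index ∧
      (∀ d : ℕ, d ∣ Nat.card H → d ≠ 1 → p ≤ d) := by
  classical
  let s : Finset ℕ := (Nat.card G).primeFactors.filter fun q => q ∈ π
  have hs : ∀ q ∈ s, q.Prime := fun q hq => Nat.prime_of_mem_primeFactors (Finset.mem_filter.1 hq).1
  have hps : ∀ q ∈ s, p ≤ q := fun q hq => hmin q (Finset.mem_filter.1 hq).2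
  have hmem : ∀ r : ℕ, r.Prime → r ∣ Nat.card G → r ∈ π → r ∈ s := fun r hr hd hπr =>
    Finset.mem_filter.2 ⟨Nat.mem_primeFactors.2 ⟨hr, hd, Nat.card_pos.ne'⟩, hπr⟩
  have hm0 : m ≠ 0 := fun h => Nat.card_pos.ne' (Nat.eq_zero_of_zero_dvd (h ▸ hm))
  have hpart : partN (Nat.card G) s = m := by
    refine Nat.dvd_antisymm ((Nat.factorization_le_iff_dvd (partN_pos hs).ne' hm0).1 fun r => ?_)
      (dvd_partN_of_dvd hs Nat.card_pos.ne' hm fun r hr hd => hmem r hr (hd.trans hm) (hmπ r hr hd))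
    rw [partN_factorization hs]
    split_ifs with hr
    · have hn := hm' r (Finset.mem_filter.1 hr).2
      have hdiv : Nat.card G / m ≠ 0 := fun h => by rw [h] at hn; exact hn (dvd_zero r)
      conv_lhs => rw [← Nat.div_mul_cancel hm, Nat.factorization_mul hdiv hm0]
      simp [Nat.factorization_eq_zero_of_not_dvd hn]
    · exact Nat.zero_le _
  have hkcl : k = Nat.card (Cl G s) := by
    rw [hk]
    refine Nat.card_congr (Equiv.subtypeEquivRight fun C => ⟨fun h q hq hex => ?_, fun h q hq hex => ?_⟩)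
    · have hqπ := h q hq hex
      obtain ⟨g, -, hd⟩ := hex
      exact Finset.mem_coe.2 (hmem q hq (hd.trans (orderOf_dvd_natCard g)) hqπ)
    · exact (Finset.mem_filter.1 (Finset.mem_coe.1 (h q hq hex))).2
  obtain ⟨H, hHn, hH⟩ := step_all.{u} p (hπ p hp) s hs hps G (by rw [hpart, ← hkcl]; exact hmany)
  have hge : ∀ d : ℕ, d ∣ Nat.card H → d ≠ 1 → p ≤ d := fun d hd h1 =>
    ge_of_dvd_partN hs hps (hH ▸ hd) h1
  refine ⟨H, hH.trans hpart, hHn, ?_, hge⟩
  rw [← hH.trans hpart, hkcl]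
  exact le_trans (Nat.mul_le_mul_left _ (card_cl_le_classes hs hHn hH))
    (classes_bound H (hπ p hp).pos hge)

end Cfsg.Agent.Lib.ManyPiClasses
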